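import Mathlib

/-!
# Generators of finite fields and their centralizers (helper16, for S2454)

* `adjoin_eq_top` : an element of `K` whose order divides no `q ^ j - 1`, `0 < j < [K : F]`, generates `K` over `F`;
* `exists_of_comm` : a matrix commuting with the multiplication by a generator is a multiplication.
-/

set_option autoImplicit false

namespace Cfsg.Agent.H16.DP

open Matrix Module

section Field

variable {F K : Type*} [Field F] [Field K] [Algebra F K]

/-- an element whose order divides no `q ^ j - 1`, `0 < j < [K : F]`, generates the field. -/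
theorem adjoin_eq_top [Finite F] [Finite K] {ζ : K} (h0 : ζ ≠ 0)
    (h : ∀ j, 0 < j → j < finrank F K → ¬ orderOf ζ ∣ Nat.card F ^ j - 1) : Algebra.adjoin F {ζ} = ⊤ := by
  classical
  set A := Algebra.adjoin F {ζ} with hA
  have hζ : ζ ∈ A := Algebra.subset_adjoin rfl
  have hfA : Finite A := inferInstance
  have : FiniteDimensional F K := Module.Finite.of_finite
  let _ : Fintype A := Fintype.ofFinite A
  let iF : Field A := Fintype.fieldOfDomain A
  have hcard : Nat.card A = Nat.card F ^ finrank F A := by
    exact Module.natCard_eq_pow_finrank (K := F) (V := A)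
  let z : A := ⟨ζ, hζ⟩
  have hz0 : z ≠ 0 := fun h1 => h0 (congrArg Subtype.val h1)
  have h1 : z ^ (Nat.card A - 1) = 1 := by
    rw [Nat.card_eq_fintype_card]
    exact FiniteField.pow_card_sub_one_eq_one z hz0
  have h2 : orderOf ζ ∣ Nat.card F ^ finrank F A - 1 := by
    apply orderOf_dvd_of_pow_eq_one
    rw [← hcard]
    exact congrArg Subtype.val h1
  have hpos : 0 < finrank F A := finrank_pos
  have hle : finrank F A ≤ finrank F K := Submodule.finrank_le (Subalgebra.toSubmodule A)
  rcases hle.lt_or_eq with h3 | h3
  · exact absurd h2 (h _ hpos h3)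
  · have h4 : Subalgebra.toSubmodule A = ⊤ := Submodule.eq_top_of_finrank_eq h3
    exact Algebra.toSubmodule_eq_top.1 h4

/-- a matrix commuting with the multiplication by a generator is a multiplication. -/
theorem exists_of_comm {κ : Type*} [Fintype κ] [DecidableEq κ] (β : Basis κ F K) {ζ : K}
    (h : Algebra.adjoin F {ζ} = ⊤) {M : Matrix κ κ F}
    (hM : M * Algebra.leftMulMatrix β ζ = Algebra.leftMulMatrix β ζ * M) : ∃ x : K, M = Algebra.leftMulMatrix β x := by
  let T : K →ₗ[F] K := Matrix.toLin β β M
  have h1 : ∀ v, T (ζ * v) = ζ * T v := by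
    intro v
    have h2 := congrArg (fun N => Matrix.toLin β β N v) hM
    simp only [Matrix.toLin_mul β β β, LinearMap.comp_apply] at h2
    have h3 : ∀ w, Matrix.toLin β β (Algebra.leftMulMatrix β ζ) w = ζ * w := by
      intro w
      rw [Algebra.leftMulMatrix_apply, Matrix.toLin_toMatrix]
      rfl
    rw [h3, h3] at h2
    exact h2
  have h2 : ∀ x : K, ∀ v, T (x * v) = x * T v := by
    intro x
    have hx : x ∈ Algebra.adjoin F {ζ} := by rw [h]; trivial
    induction hx using Algebra.adjoin_induction with
    | mem x hx =>
      rw [Set.mem_singleton_iff] at hx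
      subst hx
      exact h1
    | algebraMap r =>
      intro v
      rw [← Algebra.smul_def, map_smul, Algebra.smul_def]
    | add x y _ _ hx hy => intro v; rw [add_mul, map_add, hx, hy, add_mul]
    | mul x y _ _ hx hy => intro v; rw [mul_assoc, hx, hy, mul_assoc]
  refine ⟨T 1, ?_⟩
  have h3 : T = LinearMap.mulLeft F (T 1) := by
    ext v
    have := h2 v 1
    rw [mul_one] at this
    rw [this, LinearMap.mulLeft_apply, mul_comm]
  have h4 : Matrix.toLin β β M = Matrix.toLin β β (Algebra.leftMulMatrix β (T 1)) := by
    rw [Algebra.leftMulMatrix_apply, Matrix.toLin_toMatrix]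
    exact h3
  exact (Matrix.toLin β β).injective h4

/-- the power of the Frobenius automorphism -/
theorem exists_frob [Fintype F] [Fintype K] (n : ℕ) : ∃ σ : K →ₐ[F] K, ∀ x, σ x = x ^ (Fintype.card F ^ n) := by
  refine ⟨FiniteField.frobeniusAlgHom F K ^ n, fun x => ?_⟩
  induction n generalizing x with
  | zero => simp
  | succ n ih =>
    rw [pow_succ', AlgHom.mul_apply, ih, FiniteField.coe_frobeniusAlgHom]
    show (x ^ Fintype.card F ^ n) ^ Fintype.card F = _
    rw [← pow_mul, ← pow_succ]

/-- the number of roots of unity -/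
theorem card_pow_eq_one [Finite K] (m : ℕ) (hm : 0 < m) : Nat.card {x : K // x ^ m = 1} ≤ m := by
  classical
  have := Fintype.ofFinite K
  rw [Nat.card_eq_fintype_card, Fintype.card_subtype]
  have h1 : (Finset.univ.filter fun x : K => x ^ m = 1) ⊆ (Polynomial.nthRoots m (1 : K)).toFinset := by
    intro x hx
    rw [Finset.mem_filter] at hx
    rw [Multiset.mem_toFinset, Polynomial.mem_nthRoots hm]
    exact hx.2
  exact (Finset.card_le_card h1).trans ((Multiset.toFinset_card_le _).trans (Polynomial.card_nthRoots m 1))

end Field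

end Cfsg.Agent.H16.DP
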