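import Cfsg.Agent.H16.DP.SpCent

/-!
# Test elements of symplectic groups (helper16, for S2454)
-/

set_option autoImplicit false

namespace Cfsg.Agent.H16.DP

open Matrix Module Cfsg.Agent.H376

/-- a tower of finite fields of degrees `n`, `2`. -/
theorem exists_tower (F : Type*) [Field F] [Finite F] (n : ℕ) (hn : 0 < n) :
    ∃ (E K : Type) (_ : Field E) (_ : Field K) (_ : Finite E) (_ : Finite K) (_ : Algebra F E) (_ : Algebra F K)
      (_ : Algebra E K) (_ : IsScalarTower F E K), finrank F E = n ∧ finrank E K = 2 ∧ finrank F K = 2 * n ∧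
        Nat.card E = Nat.card F ^ n ∧ Nat.card K = Nat.card F ^ (2 * n) := by
  obtain ⟨r, hr⟩ := CharP.exists F
  have hr' : Fact r.Prime := ⟨CharP.char_is_prime F r⟩
  have : NeZero n := ⟨hn.ne'⟩
  let E := FiniteField.Extension F r n
  have : CharP E r := charP_of_injective_algebraMap (algebraMap F E).injective r
  let K := FiniteField.Extension E r 2
  let _ : Algebra F K := ((algebraMap E K).comp (algebraMap F E)).toAlgebra
  have htow : IsScalarTower F E K := IsScalarTower.of_algebraMap_eq fun _ => rfl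
  have h1 : finrank F E = n := FiniteField.finrank_extension F r n
  have h2 : finrank E K = 2 := FiniteField.finrank_extension E r 2
  have h3 : Nat.card E = Nat.card F ^ n := FiniteField.natCard_extension F r n
  have h4 : Nat.card K = Nat.card E ^ 2 := FiniteField.natCard_extension E r 2
  have h5 : finrank F K = 2 * n := by
    rw [← Module.finrank_mul_finrank F E K, h1, h2, mul_comm]
  exact ⟨E, K, inferInstance, inferInstance, inferInstance, inferInstance, inferInstance, inferInstance, inferInstance,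
    htow, h1, h2, h5, h3, by rw [h4, h3, ← pow_mul, mul_comm]⟩

/-- elements of given order -/
theorem exists_order {K : Type*} [Field K] [Finite K] {m : ℕ} (hm : m ∣ Nat.card K - 1) : ∃ ζ : K, ζ ≠ 0 ∧ orderOf ζ = m := by
  obtain ⟨u, hu⟩ := IsCyclic.exists_ofOrder_eq_natCard (α := Kˣ)
  rw [Nat.card_units] at hu
  obtain ⟨k, hk⟩ := hm
  have hpos : 0 < Nat.card K - 1 := Nat.sub_pos_of_lt Finite.one_lt_card
  have hk0 : 0 < k := by
    rcases Nat.eq_zero_or_pos k with rfl | h
    · rw [mul_zero] at hk; omega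
    · exact h
  refine ⟨((u ^ k : Kˣ) : K), Units.ne_zero _, ?_⟩
  rw [orderOf_units, orderOf_pow' u hk0.ne', hu, hk, Nat.gcd_mul_left_left, Nat.mul_div_cancel _ hk0]

section Num

theorem not_dvd_add_one {q n j : ℕ} (hq : 2 ≤ q) (h0 : 0 < j) (hj : j < 2 * n) : ¬ q ^ n + 1 ∣ q ^ j - 1 := by
  intro h
  have hj1 : 2 ≤ q ^ j := hq.trans (Nat.le_self_pow h0.ne' q)
  rcases Nat.lt_or_ge n j with h1 | h1
  · obtain ⟨i, rfl⟩ := Nat.exists_eq_add_of_lt h1
    have h2 : q ^ (n + i + 1) - 1 + (q ^ (i + 1) + 1) = q ^ (i + 1) * (q ^ n + 1) := by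
      have : q ^ (n + i + 1) = q ^ (i + 1) * q ^ n := by rw [← pow_add]; congr 1; ring
      rw [mul_add, ← this, mul_one]
      have := Nat.one_le_two_pow (n := 0)
      omega
    have h3 : q ^ n + 1 ∣ q ^ (i + 1) + 1 := by
      rw [← Nat.dvd_add_right h, h2]
      exact Dvd.intro_left _ rfl
    have h4 : q ^ (i + 1) < q ^ n := Nat.pow_lt_pow_right (by omega) (by omega)
    have := Nat.le_of_dvd (by omega) h3
    omega
  · have h2 := Nat.le_of_dvd (by omega) h
    have h3 : q ^ j ≤ q ^ n := Nat.pow_le_pow_right (by omega) h1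
    omega

/-- `(q ^ n - 1) / (q - 1)` -/
theorem geom_mul {q : ℕ} (hq : 2 ≤ q) (n : ℕ) : (∑ i ∈ Finset.range n, q ^ i) * (q - 1) = q ^ n - 1 := by
  obtain ⟨k, rfl⟩ := Nat.exists_eq_add_of_le' hq
  have := Nat.geomSum_eq hq n
  have h2 := geom_sum_mul_add (k + 1 : ℕ) n
  have h3 : k + 2 - 1 = k + 1 := rfl
  rw [h3]
  have h4 : k + 1 + 1 = k + 2 := rfl
  rw [h4] at h2
  omega

theorem geom_gt {q n : ℕ} (hq : 2 ≤ q) (hn : 3 ≤ n) {j : ℕ} (hj : j < n) : q ^ j + 1 < ∑ i ∈ Finset.range n, q ^ i := by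
  obtain ⟨k, rfl⟩ := Nat.exists_eq_add_of_le' hn
  rw [Finset.sum_range_succ, Finset.sum_range_succ', Finset.sum_range_succ']
  have h1 : q ^ j ≤ q ^ (k + 2) := Nat.pow_le_pow_right (by omega) (by omega)
  simp only [zero_add, pow_one, pow_zero]
  omega

end Num

/-- **The elements of `SL_2(q ^ n)`**. -/
theorem exists_sl {F : Type*} [Field F] [Finite F] {n : ℕ} (hn : 0 < n) {m : ℕ} (hm : m ∣ Nat.card F ^ n + 1)
    (hgen : ∀ j, 0 < j → j < 2 * n → ¬ m ∣ Nat.card F ^ j - 1) :
    ∃ (E : Type) (_ : Field E) (_ : Finite E) (_ : Algebra F E) (φ : SpecialLinearGroup (Fin 2) E →* symplecticGroup (Fin n) F)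
      (A : SpecialLinearGroup (Fin 2) E), Nat.card E = Nat.card F ^ n ∧ orderOf A = m ∧ A.1 0 1 ≠ 0 ∧ A.1 1 0 ≠ 0 ∧
        Nat.card (Subgroup.centralizer ({φ A} : Set (symplecticGroup (Fin n) F))) ≤ Nat.card F ^ n + 1 ∧
        ∃ N : Matrix (Fin n ⊕ Fin n) (Fin n ⊕ Fin n) F, N * ((φ A).1 - 1) = 1 ∧ ((φ A).1 - 1) * N = 1 := by
  obtain ⟨E, K, _, _, _, _, _, _, _, _, h1, h2, h3, h4, h5⟩ := exists_tower F n hn
  have := Fintype.ofFinite F
  have := Fintype.ofFinite E
  have := Fintype.ofFinite K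
  set q := Nat.card F with hq
  have hq2 : 2 ≤ q := Finite.one_lt_card
  have : FiniteDimensional F E := Module.Finite.of_finite
  have : FiniteDimensional E K := Module.Finite.of_finite
  have : FiniteDimensional F K := Module.Finite.of_finite
  let b : Basis (Fin n) F E := Module.finBasisOfFinrankEq F E h1
  let c : Basis (Fin 2) E K := Module.finBasisOfFinrankEq E K h2
  have hfac : q ^ (2 * n) - 1 = (q ^ n + 1) * (q ^ n - 1) := by
    have := Nat.sq_sub_sq (q ^ n) 1
    rw [← pow_mul, mul_comm n 2] at this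
    simpa using this
  obtain ⟨ζ, hζ0, hζ⟩ := exists_order (K := K) (m := m) (by
    rw [h5, hfac]
    exact hm.mul_right _)
  have hadj : Algebra.adjoin F {ζ} = ⊤ := adjoin_eq_top hζ0 (by
    intro j hj0 hj
    rw [h3] at hj
    rw [hζ]
    exact hgen j hj0 hj)
  have hz1 : ζ ^ (q ^ n + 1) = 1 := by
    rw [← orderOf_dvd_iff_pow_eq_one, hζ]
    exact hm
  have hdet : (Algebra.leftMulMatrix c ζ).det = 1 := by
    rw [← Algebra.norm_eq_matrix_det]
    apply (algebraMap E K).injective
    rw [FiniteField.algebraMap_norm_eq_pow, map_one, h5, h4, hfac, Nat.mul_div_cancel, hz1]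
    have : q ^ n ≥ 2 := hq2.trans (Nat.le_self_pow hn.ne' q)
    omega
  obtain ⟨σ, hσ⟩ := exists_frob (F := F) (K := K) n
  let A : SpecialLinearGroup (Fin 2) E := ⟨Algebra.leftMulMatrix c ζ, hdet⟩
  -- `ζ` is not in `E`
  have hnot : ∀ x : E, algebraMap E K x ≠ ζ := by
    rintro x rfl
    have hx0 : x ≠ 0 := fun h => hζ0 (by rw [h, map_zero])
    have hx : x ^ (q ^ n - 1) = 1 := by
      rw [← h4, Nat.card_eq_fintype_card]
      exact FiniteField.pow_card_sub_one_eq_one x hx0
    refine hgen n hn (by omega) ?_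
    rw [← hζ, orderOf_dvd_iff_pow_eq_one, ← map_pow, hx, map_one]
  have hcol : ∀ j i : Fin 2, i ≠ j → A.1 i j ≠ 0 := by
    intro j i hij h0
    have h6 : ζ * c j = ∑ k, Algebra.leftMulMatrix c ζ k j • c k := by
      rw [← c.sum_repr (ζ * c j)]
      refine Finset.sum_congr rfl fun k _ => ?_
      rw [Algebra.leftMulMatrix_eq_repr_mul]
    have h7 : ζ * c j = Algebra.leftMulMatrix c ζ j j • c j := by
      rw [h6, Finset.sum_eq_single j]
      · intro k _ hk
        have hki : k = i := by omega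
        rw [hki]
        have h0' : Algebra.leftMulMatrix c ζ i j = 0 := h0
        rw [h0', zero_smul]
      · simp
    rw [Algebra.smul_def] at h7
    exact hnot _ (mul_right_cancel₀ (c.ne_zero j) h7).symm
  refine ⟨E, inferInstance, inferInstance, inferInstance, SpEmb.ofSLTwo (F := F) b, A, h4, ?_, hcol 1 0 (by decide), hcol 0 1 (by decide), ?_,
    exists_inv_sub_one b c A rfl ?_⟩
  · have hA : Function.Injective (fun z : K => Algebra.leftMulMatrix c z) := Algebra.leftMulMatrix_injective c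
    have h8 : orderOf (A.1) = orderOf ζ := orderOf_injective (Algebra.leftMulMatrix c : K →* Matrix (Fin 2) (Fin 2) E) hA ζ
    have h9 : orderOf A = orderOf A.1 := by
      rw [← orderOf_injective (SpecialLinearGroup.toGL (n := Fin 2) (R := E)) SpecialLinearGroup.toGL_injective A,
        ← orderOf_units]
      rfl
    rw [h9, h8, hζ]
  · refine card_cent_ofSLTwo b c A rfl hadj σ ?_ hz1
    intro x
    rw [hσ, hq, Nat.card_eq_fintype_card]
  · rintro rfl
    exact hnot 1 (map_one _)

/-- the inverse of a generator of large order is not conjugate to it. -/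
theorem aeval_inv_ne {F E : Type*} [Field F] [Finite F] [Field E] [Finite E] [Algebra F E] {l : E}
    (hl : l ≠ 0) (h : ∀ j, j < finrank F E → l ^ (Nat.card F ^ j + 1) ≠ 1) : Polynomial.aeval l⁻¹ (minpoly F l) ≠ 0 := by
  intro h0
  have := Fintype.ofFinite F
  have := Fintype.ofFinite E
  have : FiniteDimensional F E := Module.Finite.of_finite
  rw [← isConjRoot_iff_aeval_eq_zero (Algebra.IsIntegral.isIntegral l), isConjRoot_iff_exists_algEquiv] at h0
  obtain ⟨σ, hσ⟩ := h0
  obtain ⟨⟨i, hi⟩, hi2⟩ := (FiniteField.bijective_frobeniusAlgEquivOfAlgebraic_pow F E).2 σ⁻¹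
  have h1 : ∀ (k : ℕ) (x : E), (FiniteField.frobeniusAlgEquivOfAlgebraic F E ^ k) x = x ^ (Nat.card F ^ k) := by
    intro k
    induction k with
    | zero => intro x; simp
    | succ k ih =>
      intro x
      rw [pow_succ', AlgEquiv.mul_apply, ih, FiniteField.coe_frobeniusAlgEquivOfAlgebraic]
      show (x ^ _) ^ _ = _
      rw [← pow_mul, ← Nat.card_eq_fintype_card, ← pow_succ]
  have h2 : l ^ (Nat.card F ^ i) = l⁻¹ := by
    rw [← h1]
    have h3 : (FiniteField.frobeniusAlgEquivOfAlgebraic F E ^ i) l = σ⁻¹ l := by rw [← hi2]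
    rw [h3]
    have h4 : σ⁻¹ (σ l⁻¹) = l⁻¹ := σ.symm_apply_apply _
    exact (congrArg (fun z => σ⁻¹ z) hσ.symm).trans h4
  refine h i hi ?_
  rw [pow_succ, h2, inv_mul_cancel₀ hl]

end Cfsg.Agent.H16.DP
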