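import Cfsg.Agent.H16.DP.Field
import Cfsg.Agent.H376.SpEmb

/-!
# Centralizers of generators in symplectic groups (helper16, for S2454)
-/

set_option autoImplicit false

namespace Cfsg.Agent.H16.DP

open Matrix Module Cfsg.Agent.H376

section Gen

variable {F K : Type*} [Field F] [Field K] [Algebra F K] {ι : Type*} [Fintype ι] [DecidableEq ι]

/-- the adjoint for the standard symplectic form -/
def adj (N : Matrix (ι ⊕ ι) (ι ⊕ ι) F) : Matrix (ι ⊕ ι) (ι ⊕ ι) F := -J ι F * Nᵀ * J ι F

theorem J_mul_J : J ι F * J ι F = -1 := J_squared ι F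

theorem adj_mul (M N : Matrix (ι ⊕ ι) (ι ⊕ ι) F) : adj (M * N) = adj N * adj M := by
  unfold adj
  rw [Matrix.transpose_mul]
  have h : J ι F * -J ι F = 1 := by rw [mul_neg, J_mul_J, neg_neg]
  calc -J ι F * (Nᵀ * Mᵀ) * J ι F = -J ι F * Nᵀ * (J ι F * -J ι F) * Mᵀ * J ι F := by
        rw [h]; simp only [mul_assoc, one_mul]
    _ = _ := by simp only [mul_assoc]

theorem adj_add (M N : Matrix (ι ⊕ ι) (ι ⊕ ι) F) : adj (M + N) = adj M + adj N := by
  unfold adj
  rw [Matrix.transpose_add, mul_add, add_mul]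

theorem adj_smul (r : F) (M : Matrix (ι ⊕ ι) (ι ⊕ ι) F) : adj (r • M) = r • adj M := by
  unfold adj
  rw [Matrix.transpose_smul, mul_smul_comm, smul_mul_assoc]

theorem adj_one : adj (1 : Matrix (ι ⊕ ι) (ι ⊕ ι) F) = 1 := by
  unfold adj
  rw [Matrix.transpose_one, mul_one, neg_mul, J_mul_J, neg_neg]

theorem inv_eq_adj (M : symplecticGroup ι F) : (M⁻¹).1 = adj M.1 := SymplecticGroup.coe_inv M

theorem mul_adj (M : symplecticGroup ι F) : M.1 * adj M.1 = 1 := by
  rw [← inv_eq_adj]
  exact congrArg Subtype.val (mul_inv_cancel M)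

/-- elements of `Sp` given by the multiplication by a generator of norm one. -/
theorem card_cent_gen [Finite F] [Finite K] (β : Basis (ι ⊕ ι) F K)
    {U V : Matrix (ι ⊕ ι) (ι ⊕ ι) F} (hUV : U * V = 1)
    {ζ : K} (h : Algebra.adjoin F {ζ} = ⊤) {Q : ℕ} (σ : K →ₐ[F] K) (hσ : ∀ x, σ x = x ^ Q) (hζ : ζ ^ (Q + 1) = 1)
    (M : symplecticGroup ι F) (hM : M.1 = U * Algebra.leftMulMatrix β ζ * V) :
    Nat.card (Subgroup.centralizer ({M} : Set (symplecticGroup ι F))) ≤ Q + 1 := by
  have hVU : V * U = 1 := mul_eq_one_comm.1 hUV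
  let Ψ : K → Matrix (ι ⊕ ι) (ι ⊕ ι) F := fun x => U * Algebra.leftMulMatrix β x * V
  have hmul : ∀ x y, Ψ (x * y) = Ψ x * Ψ y := by
    intro x y
    show U * Algebra.leftMulMatrix β (x * y) * V = U * Algebra.leftMulMatrix β x * V * (U * Algebra.leftMulMatrix β y * V)
    calc U * Algebra.leftMulMatrix β (x * y) * V =
        U * Algebra.leftMulMatrix β x * (1 * Algebra.leftMulMatrix β y) * V := by
          rw [map_mul, one_mul]; simp only [mul_assoc]
      _ = _ := by rw [← hVU]; simp only [mul_assoc]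
  have hone : Ψ 1 = 1 := by
    show U * Algebra.leftMulMatrix β 1 * V = 1
    rw [map_one, mul_one, hUV]
  have hadd : ∀ x y, Ψ (x + y) = Ψ x + Ψ y := by
    intro x y
    show U * Algebra.leftMulMatrix β (x + y) * V = _
    rw [map_add, mul_add, add_mul]
  have hsc : ∀ (r : F), Ψ (algebraMap F K r) = r • 1 := by
    intro r
    show U * Algebra.leftMulMatrix β (algebraMap F K r) * V = _
    rw [AlgHom.commutes, Algebra.algebraMap_eq_smul_one, mul_smul_comm, mul_one, smul_mul_assoc, hUV]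
  have hinj : ∀ x y, Ψ x = Ψ y → x = y := by
    intro x y hxy
    apply Algebra.leftMulMatrix_injective β
    have h1 : V * Ψ x * U = V * Ψ y * U := by rw [hxy]
    have h2 : ∀ z, V * Ψ z * U = Algebra.leftMulMatrix β z := by
      intro z
      show V * (U * Algebra.leftMulMatrix β z * V) * U = _
      calc V * (U * Algebra.leftMulMatrix β z * V) * U = (V * U) * Algebra.leftMulMatrix β z * (V * U) := by
            simp only [mul_assoc]
        _ = _ := by rw [hVU, one_mul, mul_one]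
    rw [h2, h2] at h1
    exact h1
  have hadj : ∀ x, adj (Ψ x) = Ψ (x ^ Q) := by
    intro x
    have hx : x ∈ Algebra.adjoin F {ζ} := by rw [h]; trivial
    induction hx using Algebra.adjoin_induction with
    | mem x hx =>
      rw [Set.mem_singleton_iff] at hx
      subst hx
      have h1 : M.1 = Ψ x := hM
      have h2 : Ψ x * Ψ (x ^ Q) = 1 := by
        rw [← hmul, ← pow_succ', hζ, hone]
      have h3 : adj M.1 * M.1 = 1 := by
        rw [← inv_eq_adj]
        exact congrArg Subtype.val (inv_mul_cancel M)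
      rw [← h1] at h2 ⊢
      calc adj M.1 = adj M.1 * (M.1 * Ψ (x ^ Q)) := by rw [h2, mul_one]
        _ = _ := by rw [← mul_assoc, h3, one_mul]
    | algebraMap r =>
      rw [← hσ, AlgHom.commutes, hsc, adj_smul, adj_one]
    | add x y _ _ hx hy =>
      rw [hadd, adj_add, hx, hy, ← hadd, ← hσ, ← hσ, ← hσ, map_add]
    | mul x y _ _ hx hy =>
      rw [hmul, adj_mul, hx, hy, ← hmul, mul_pow, mul_comm]
  have hex : ∀ g : Subgroup.centralizer ({M} : Set (symplecticGroup ι F)), ∃ x : K, g.1.1 = Ψ x ∧ x ^ (Q + 1) = 1 := by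
    rintro ⟨g, hg⟩
    rw [Subgroup.mem_centralizer_singleton_iff] at hg
    have h1 : g.1 * M.1 = M.1 * g.1 := congrArg Subtype.val hg
    have h2 : (V * g.1 * U) * Algebra.leftMulMatrix β ζ = Algebra.leftMulMatrix β ζ * (V * g.1 * U) := by
      have h3 : V * (g.1 * M.1) * U = V * (M.1 * g.1) * U := by rw [h1]
      rw [hM] at h3
      calc (V * g.1 * U) * Algebra.leftMulMatrix β ζ = (V * g.1 * U) * Algebra.leftMulMatrix β ζ * (V * U) := by
            rw [hVU, mul_one]
        _ = V * (g.1 * (U * Algebra.leftMulMatrix β ζ * V)) * U := by simp only [mul_assoc]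
        _ = V * (U * Algebra.leftMulMatrix β ζ * V * g.1) * U := h3
        _ = (V * U) * Algebra.leftMulMatrix β ζ * (V * g.1 * U) := by simp only [mul_assoc]
        _ = _ := by rw [hVU, one_mul]
    obtain ⟨x, hx⟩ := exists_of_comm β h h2
    have h3 : g.1 = Ψ x := by
      show g.1 = U * Algebra.leftMulMatrix β x * V
      rw [← hx]
      calc g.1 = (U * V) * g.1 * (U * V) := by rw [hUV, one_mul, mul_one]
        _ = _ := by simp only [mul_assoc]
    refine ⟨x, h3, ?_⟩
    apply hinj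
    rw [hone, pow_succ', hmul, ← hadj]
    show Ψ x * adj (Ψ x) = 1
    rw [← h3]
    exact mul_adj g
  choose f hf1 hf2 using hex
  refine (Nat.card_le_card_of_injective (fun g => (⟨f g, hf2 g⟩ : {x : K // x ^ (Q + 1) = 1})) ?_).trans
    (card_pow_eq_one (Q + 1) (Nat.succ_pos Q))
  intro g g' hgg
  have h1 : f g = f g' := congrArg Subtype.val hgg
  apply Subtype.ext
  apply Subtype.ext
  rw [hf1, hf1, h1]

end Gen

section Tower

variable {F E K : Type*} [Field F] [Field E] [Field K] [Algebra F E] [Algebra F K] [Algebra E K] [IsScalarTower F E K]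
  {ι : Type*} [Fintype ι] [DecidableEq ι]

/-- the index equivalence -/
def eqv (ι : Type*) : ι × Fin 2 ≃ ι ⊕ ι where
  toFun x := if x.2 = 0 then Sum.inl x.1 else Sum.inr x.1
  invFun y := Sum.elim (fun i => (i, 0)) (fun i => (i, 1)) y
  left_inv := by
    rintro ⟨i, j⟩
    fin_cases j <;> rfl
  right_inv := by
    rintro (i | i) <;> rfl

/-- the tower basis -/
noncomputable def tb (b : Basis ι F E) (c : Basis (Fin 2) E K) : Basis (ι ⊕ ι) F K := (b.smulTower c).reindex (eqv ι)

theorem leftMulMatrix_tb (b : Basis ι F E) (c : Basis (Fin 2) E K) (x : K) :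
    Algebra.leftMulMatrix (tb b c) x =
      fromBlocks (Algebra.leftMulMatrix b (Algebra.leftMulMatrix c x 0 0)) (Algebra.leftMulMatrix b (Algebra.leftMulMatrix c x 0 1))
        (Algebra.leftMulMatrix b (Algebra.leftMulMatrix c x 1 0)) (Algebra.leftMulMatrix b (Algebra.leftMulMatrix c x 1 1)) := by
  have h1 : ∀ i j, Algebra.leftMulMatrix (tb b c) x i j =
      Algebra.leftMulMatrix (b.smulTower c) x ((eqv ι).symm i) ((eqv ι).symm j) := by
    intro i j
    rw [Algebra.leftMulMatrix_eq_repr_mul, Algebra.leftMulMatrix_eq_repr_mul]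
    unfold tb
    rw [Basis.reindex_apply, Basis.repr_reindex_apply]
  ext i j
  rw [h1, Algebra.smulTower_leftMulMatrix]
  rcases i with i | i <;> rcases j with j | j <;> rfl

variable [Algebra.IsSeparable F E] [FiniteDimensional F E]

theorem card_cent_ofSLTwo [Finite F] [Finite K] (b : Basis ι F E) (c : Basis (Fin 2) E K) (A : SpecialLinearGroup (Fin 2) E)
    {ζ : K} (hA : A.1 = Algebra.leftMulMatrix c ζ) (h : Algebra.adjoin F {ζ} = ⊤) {Q : ℕ} (σ : K →ₐ[F] K)
    (hσ : ∀ x, σ x = x ^ Q) (hζ : ζ ^ (Q + 1) = 1) :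
    Nat.card (Subgroup.centralizer ({SpEmb.ofSLTwo (F := F) b A} : Set (symplecticGroup ι F))) ≤ Q + 1 := by
  set T := Algebra.traceMatrix F b with hT
  have hu := SpEmb.isUnit_trace (F := F) b
  have hUV : (fromBlocks 1 0 0 T : Matrix (ι ⊕ ι) (ι ⊕ ι) F) * fromBlocks 1 0 0 T⁻¹ = 1 := by
    rw [fromBlocks_multiply]
    simp [Matrix.mul_nonsing_inv _ hu, hT]
  refine card_cent_gen (tb b c) hUV h σ hσ hζ _ ?_
  rw [leftMulMatrix_tb, fromBlocks_multiply, fromBlocks_multiply]
  simp only [one_mul, zero_mul, mul_zero, add_zero, zero_add, mul_one]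
  have h2 : T * Algebra.leftMulMatrix b (Algebra.leftMulMatrix c ζ 1 1) * T⁻¹ =
      (Algebra.leftMulMatrix b (Algebra.leftMulMatrix c ζ 1 1))ᵀ := by
    rw [hT, SpEmb.trace_mul, mul_assoc, Matrix.mul_nonsing_inv _ hu, mul_one]
  rw [h2, ← hA]
  rfl

/-- `M - 1` is invertible. -/
theorem exists_inv_sub_one (b : Basis ι F E) (c : Basis (Fin 2) E K) (A : SpecialLinearGroup (Fin 2) E)
    {ζ : K} (hA : A.1 = Algebra.leftMulMatrix c ζ) (h1 : ζ ≠ 1) :
    ∃ N : Matrix (ι ⊕ ι) (ι ⊕ ι) F, N * ((SpEmb.ofSLTwo (F := F) b A).1 - 1) = 1 ∧ ((SpEmb.ofSLTwo (F := F) b A).1 - 1) * N = 1 := by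
  set T := Algebra.traceMatrix F b with hT
  have hu := SpEmb.isUnit_trace (F := F) b
  obtain ⟨U, V, hUV, hM⟩ : ∃ U V : Matrix (ι ⊕ ι) (ι ⊕ ι) F, U * V = 1 ∧
      (SpEmb.ofSLTwo (F := F) b A).1 = U * Algebra.leftMulMatrix (tb b c) ζ * V := by
    have hUV : (fromBlocks 1 0 0 T : Matrix (ι ⊕ ι) (ι ⊕ ι) F) * fromBlocks 1 0 0 T⁻¹ = 1 := by
      rw [fromBlocks_multiply]
      simp [Matrix.mul_nonsing_inv _ hu, hT]
    refine ⟨_, _, hUV, ?_⟩
    rw [leftMulMatrix_tb, fromBlocks_multiply, fromBlocks_multiply]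
    simp only [one_mul, zero_mul, mul_zero, add_zero, zero_add, mul_one]
    have h2 : T * Algebra.leftMulMatrix b (Algebra.leftMulMatrix c ζ 1 1) * T⁻¹ =
        (Algebra.leftMulMatrix b (Algebra.leftMulMatrix c ζ 1 1))ᵀ := by
      rw [hT, SpEmb.trace_mul, mul_assoc, Matrix.mul_nonsing_inv _ hu, mul_one]
    rw [h2, ← hA]
    rfl
  have hVU : V * U = 1 := mul_eq_one_comm.1 hUV
  have h2 : (SpEmb.ofSLTwo (F := F) b A).1 - 1 = U * Algebra.leftMulMatrix (tb b c) (ζ - 1) * V := by
    rw [hM, map_sub, map_one, mul_sub, sub_mul, mul_one, hUV]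
  have h3 : ζ - 1 ≠ 0 := sub_ne_zero.2 h1
  refine ⟨U * Algebra.leftMulMatrix (tb b c) (ζ - 1)⁻¹ * V, ?_, ?_⟩
  · rw [h2]
    calc U * Algebra.leftMulMatrix (tb b c) (ζ - 1)⁻¹ * V * (U * Algebra.leftMulMatrix (tb b c) (ζ - 1) * V)
        = U * Algebra.leftMulMatrix (tb b c) (ζ - 1)⁻¹ * (V * U) * Algebra.leftMulMatrix (tb b c) (ζ - 1) * V := by
          simp only [mul_assoc]
      _ = U * (Algebra.leftMulMatrix (tb b c) (ζ - 1)⁻¹ * Algebra.leftMulMatrix (tb b c) (ζ - 1)) * V := by
          rw [hVU, mul_one]; simp only [mul_assoc]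
      _ = 1 := by rw [← map_mul, inv_mul_cancel₀ h3, map_one, mul_one, hUV]
  · rw [h2]
    calc U * Algebra.leftMulMatrix (tb b c) (ζ - 1) * V * (U * Algebra.leftMulMatrix (tb b c) (ζ - 1)⁻¹ * V)
        = U * Algebra.leftMulMatrix (tb b c) (ζ - 1) * (V * U) * Algebra.leftMulMatrix (tb b c) (ζ - 1)⁻¹ * V := by
          simp only [mul_assoc]
      _ = U * (Algebra.leftMulMatrix (tb b c) (ζ - 1) * Algebra.leftMulMatrix (tb b c) (ζ - 1)⁻¹) * V := by
          rw [hVU, mul_one]; simp only [mul_assoc]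
      _ = 1 := by rw [← map_mul, mul_inv_cancel₀ h3, map_one, mul_one, hUV]

end Tower

section Levi

variable {F E : Type*} [Field F] [Field E] [Algebra F E] {ι : Type*} [Fintype ι] [DecidableEq ι]

/-- the element of `GL` given by a non-zero element of the field -/
noncomputable def mulGL (b : Basis ι F E) {l : E} (hl : l ≠ 0) : GL ι F :=
  ⟨Algebra.leftMulMatrix b l, Algebra.leftMulMatrix b l⁻¹, by rw [← map_mul, mul_inv_cancel₀ hl, map_one],
    by rw [← map_mul, inv_mul_cancel₀ hl, map_one]⟩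

/-- polynomials and intertwiners -/
theorem intertwine {X Y B : Matrix ι ι F} (h : B * Y = X * B) (f : Polynomial F) :
    B * Polynomial.aeval Y f = Polynomial.aeval X f * B := by
  have hp : ∀ n : ℕ, B * Y ^ n = X ^ n * B := by
    intro n
    induction n with
    | zero => simp
    | succ n ih => rw [pow_succ, ← mul_assoc, ih, mul_assoc, h, ← mul_assoc, ← pow_succ]
  induction f using Polynomial.induction_on' with
  | add p q hp hq => rw [map_add, map_add, mul_add, add_mul, hp, hq]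
  | monomial n a =>
    rw [Polynomial.aeval_monomial, Polynomial.aeval_monomial, Algebra.algebraMap_eq_smul_one,
      smul_mul_assoc, smul_mul_assoc, one_mul, one_mul, mul_smul_comm, smul_mul_assoc, hp]

/-- the Siegel Levi subgroup -/
theorem card_cent_levi [Finite F] [Finite E] (b : Basis ι F E) {l : E} (hl : l ≠ 0) (h : Algebra.adjoin F {l} = ⊤)
    (hinv : Polynomial.aeval l⁻¹ (minpoly F l) ≠ 0) :
    Nat.card (Subgroup.centralizer ({SpEmb.levi ι (mulGL b hl)} : Set (symplecticGroup ι F))) ≤ Nat.card E - 1 := by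
  classical
  have hinj := Algebra.leftMulMatrix_injective b
  -- the polynomial kills `λ(l)`
  have hf1 : Polynomial.aeval (Algebra.leftMulMatrix b l) (minpoly F l) = 0 := by
    rw [Polynomial.aeval_algHom_apply, minpoly.aeval, map_zero]
  have hf2 : Polynomial.aeval ((Algebra.leftMulMatrix b l⁻¹)ᵀ) (minpoly F l) =
      (Algebra.leftMulMatrix b (Polynomial.aeval l⁻¹ (minpoly F l)))ᵀ := by
    have h1 : ∀ f : Polynomial F, Polynomial.aeval ((Algebra.leftMulMatrix b l⁻¹)ᵀ) f =
        (Polynomial.aeval (Algebra.leftMulMatrix b l⁻¹) f)ᵀ := by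
      intro f
      induction f using Polynomial.induction_on' with
      | add p q hp hq => 
        rw [map_add, map_add, Matrix.transpose_add, hp, hq]
      | monomial n a =>
        rw [Polynomial.aeval_monomial, Polynomial.aeval_monomial, Algebra.algebraMap_eq_smul_one,
          smul_mul_assoc, smul_mul_assoc, one_mul, one_mul, Matrix.transpose_smul, Matrix.transpose_pow]
    rw [h1, Polynomial.aeval_algHom_apply]
  have hex : ∀ g : Subgroup.centralizer ({SpEmb.levi ι (mulGL b hl)} : Set (symplecticGroup ι F)),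
      ∃ x : E, x ≠ 0 ∧ g.1.1 = fromBlocks (Algebra.leftMulMatrix b x) 0 0 (Algebra.leftMulMatrix b x⁻¹)ᵀ := by
    rintro ⟨g, hg⟩
    rw [Subgroup.mem_centralizer_singleton_iff] at hg
    have h1 : g.1 * (SpEmb.levi ι (mulGL b hl)).1 = (SpEmb.levi ι (mulGL b hl)).1 * g.1 := congrArg Subtype.val hg
    have h2 : (SpEmb.levi ι (mulGL b hl)).1 = fromBlocks (Algebra.leftMulMatrix b l) 0 0 (Algebra.leftMulMatrix b l⁻¹)ᵀ := rfl
    obtain ⟨A, B, C, D, hgb⟩ : ∃ A B C D, g.1 = fromBlocks A B C D := ⟨_, _, _, _, (fromBlocks_toBlocks g.1).symm⟩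
    rw [h2, hgb, fromBlocks_multiply, fromBlocks_multiply] at h1
    simp only [mul_zero, zero_mul, add_zero, zero_add] at h1
    obtain ⟨hA, hB, hC, hD⟩ := fromBlocks_inj.1 h1
    obtain ⟨x, hx⟩ := exists_of_comm b h hA
    -- B = 0
    have hB0 : B = 0 := by
      have h3 := intertwine hB (minpoly F l)
      rw [hf1, zero_mul, hf2] at h3
      have h4 : (Algebra.leftMulMatrix b (Polynomial.aeval l⁻¹ (minpoly F l)))ᵀ *
          (Algebra.leftMulMatrix b (Polynomial.aeval l⁻¹ (minpoly F l))⁻¹)ᵀ = 1 := by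
        rw [← Matrix.transpose_mul, ← map_mul, inv_mul_cancel₀ hinv, map_one, Matrix.transpose_one]
      have h5 := congrArg (· * (Algebra.leftMulMatrix b (Polynomial.aeval l⁻¹ (minpoly F l))⁻¹)ᵀ) h3
      simpa only [mul_assoc, h4, mul_one, zero_mul] using h5
    have hC0 : C = 0 := by
      have h3 := intertwine hC (minpoly F l)
      rw [hf1, mul_zero, hf2] at h3
      have h4 : (Algebra.leftMulMatrix b (Polynomial.aeval l⁻¹ (minpoly F l))⁻¹)ᵀ *
          (Algebra.leftMulMatrix b (Polynomial.aeval l⁻¹ (minpoly F l)))ᵀ = 1 := by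
        rw [← Matrix.transpose_mul, ← map_mul, mul_inv_cancel₀ hinv, map_one, Matrix.transpose_one]
      have h5 := congrArg ((Algebra.leftMulMatrix b (Polynomial.aeval l⁻¹ (minpoly F l))⁻¹)ᵀ * ·) h3
      simpa only [← mul_assoc, h4, one_mul, mul_zero] using h5.symm
    have hmem := g.2
    rw [hgb, SymplecticGroup.fromBlocks_mem_iff] at hmem
    have hAD := hmem.2.2
    rw [hB0, hC0, Matrix.transpose_zero, zero_mul, sub_zero, hx, ← Matrix.transpose_one, ← Matrix.transpose_injective.eq_iff] at hAD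
    rw [Matrix.transpose_mul, Matrix.transpose_transpose, Matrix.transpose_one, Matrix.transpose_one] at hAD
    have hx0 : x ≠ 0 := by
      rintro rfl
      rw [map_zero, mul_zero] at hAD
      have : Nonempty ι := by
        by_contra hne
        rw [not_nonempty_iff] at hne
        have h9 : Algebra.leftMulMatrix b l = Algebra.leftMulMatrix b 0 := Subsingleton.elim _ _
        exact hl (hinj h9)
      exact zero_ne_one hAD
    refine ⟨x, hx0, ?_⟩
    have hD' : Dᵀ = Algebra.leftMulMatrix b x⁻¹ := by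
      calc Dᵀ = Dᵀ * (Algebra.leftMulMatrix b x * Algebra.leftMulMatrix b x⁻¹) := by
            rw [← map_mul, mul_inv_cancel₀ hx0, map_one, mul_one]
        _ = _ := by rw [← mul_assoc, hAD, one_mul]
    rw [hgb, hB0, hC0, hx, ← hD', Matrix.transpose_transpose]
  choose f hf0 hf using hex
  have h1 : Nat.card (Subgroup.centralizer ({SpEmb.levi ι (mulGL b hl)} : Set (symplecticGroup ι F))) ≤ Nat.card Eˣ := by
    refine Nat.card_le_card_of_injective (fun g => Units.mk0 (f g) (hf0 g)) ?_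
    intro g g' hgg
    have h2 : f g = f g' := congrArg Units.val hgg
    apply Subtype.ext
    apply Subtype.ext
    rw [hf, hf, h2]
  rw [Nat.card_units] at h1
  exact h1

end Levi

end Cfsg.Agent.H16.DP
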