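import Cfsg.Agent.H16.DP.Gen
import Cfsg.Agent.H514.DP.Windows

/-!
# Windows in the Siegel Levi subgroup lie in symplectic blocks (helper16, for S2454)
-/

set_option autoImplicit false

namespace Cfsg.Agent.H16.DP

open Matrix Module Cfsg.Agent.H376 Cfsg.Agent.H514.DP

variable {F : Type*} [Field F] {ι κ μ : Type*} [Fintype ι] [DecidableEq ι] [Fintype κ] [DecidableEq κ]

/-- the Levi embedding of `SL` -/
noncomputable def levSL (ι : Type*) [Fintype ι] [DecidableEq ι] : SpecialLinearGroup ι F →* symplecticGroup ι F :=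
  (SpEmb.levi ι).comp SpecialLinearGroup.toGL

theorem levSL_coe (M : SpecialLinearGroup ι F) : (levSL ι M).1 = fromBlocks M.1 0 0 (M⁻¹).1ᵀ := rfl

open scoped Classical in
/-- the block embedding of symplectic groups -/
noncomputable def spEmb (f : κ ↪ ι) : symplecticGroup κ F →* symplecticGroup ι F :=
  (SpEmb.reidx (sumEquiv f)).comp ((SpEmb.blk κ {x : ι // x ∉ Set.range f}).comp (MonoidHom.inl _ _))

theorem levi_emb (f : κ ↪ ι) (M : GL κ F) (N : GL ι F) (hN : N.1 = embM f M.1) :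
    SpEmb.levi ι N = spEmb f (SpEmb.levi κ M) := by
  classical
  have hN' : (N⁻¹).1 = embM f (M⁻¹).1 := by
    have h1 : embM f (M⁻¹).1 * N.1 = 1 := by
      rw [hN, ← embM_mul, ← Units.val_mul, inv_mul_cancel, Units.val_one, embM_one]
    have h2 : N.1 * (N⁻¹).1 = 1 := by rw [← Units.val_mul, mul_inv_cancel, Units.val_one]
    calc (N⁻¹).1 = embM f (M⁻¹).1 * N.1 * (N⁻¹).1 := by rw [h1, one_mul]
      _ = _ := by rw [mul_assoc, h2, mul_one]
  apply Subtype.ext
  show fromBlocks N.1 0 0 (N⁻¹).1ᵀ = (SpEmb.blkM (fromBlocks M.1 0 0 (M⁻¹).1ᵀ) (1 : Matrix _ _ F)).submatrix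
    (Equiv.sumCongr (sumEquiv f) (sumEquiv f)).symm (Equiv.sumCongr (sumEquiv f) (sumEquiv f)).symm
  rw [hN, hN', ← fromBlocks_one]
  unfold SpEmb.blkM
  simp only [toBlocks_fromBlocks₁₁, toBlocks_fromBlocks₁₂, toBlocks_fromBlocks₂₁, toBlocks_fromBlocks₂₂]
  ext i j
  rcases i with i | i <;> rcases j with j | j
  · rfl
  · show (0 : F) = (fromBlocks 0 0 0 0 : Matrix (κ ⊕ _) (κ ⊕ _) F) _ _
    rw [fromBlocks_zero]
    rfl
  · show (0 : F) = (fromBlocks 0 0 0 0 : Matrix (κ ⊕ _) (κ ⊕ _) F) _ _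
    rw [fromBlocks_zero]
    rfl
  · show (embM f (M⁻¹).1)ᵀ i j = (fromBlocks _ 0 0 1 : Matrix (κ ⊕ _) (κ ⊕ _) F) _ _
    rw [transpose_apply]
    show (fromBlocks (M⁻¹).1 0 0 1 : Matrix (κ ⊕ _) (κ ⊕ _) F) _ _ = _
    generalize (sumEquiv f).symm i = i'
    generalize (sumEquiv f).symm j = j'
    rcases i' with i' | i' <;> rcases j' with j' | j'
    · rfl
    · rfl
    · rfl
    · show (1 : Matrix _ _ F) j' i' = (1 : Matrix _ _ F) i' j'
      rw [one_apply, one_apply]
      simp only [eq_comm]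

theorem levSL_emb (f : κ ↪ ι) (M : SpecialLinearGroup κ F) : levSL ι (emb f M) = spEmb f (levSL κ M) :=
  levi_emb f _ _ rfl

/-- two windows inside symplectic blocks of the same size -/
theorem pe_windows {p m i n : ℕ} (hi : i ≤ n) (hn : n + 1 ≤ 2 * i) (hW : PW p m (symplecticGroup (Fin i) F)) (c : ℕ → F)
    (h : (comp n c).det = 1) : PE p (m + m) (levSL (Fin n) (compSL n c h)) := by
  obtain ⟨a, rfl⟩ : ∃ a, i = a + 1 := ⟨i - 1, by omega⟩
  obtain ⟨b, rfl⟩ : ∃ b, n = a + b + 1 := ⟨n - a - 1, by omega⟩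
  obtain ⟨c', c'', h', h'', he⟩ := exists_comp_mul a b c h
  rw [he, map_mul]
  refine PE.mul ?_ ?_
  · rw [levSL_emb]
    exact hW.pe _ _
  · have e3 : sh (w := b + 1) (n := a + b + 1) a (by omega) =
        (sh (w := b + 1) (n := a + 1) (a - b) (by omega)).trans (sh (w := a + 1) (n := a + b + 1) b (by omega)) := by
      ext i
      show a + (i : ℕ) = b + (a - b + i)
      omega
    rw [e3, ← emb_trans, levSL_emb]
    exact hW.pe _ _

/-- the companion matrix of a generator -/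
theorem comp_lev [Finite F] {E : Type*} [Field E] [Finite E] [Algebra F E] {l : E} (hl : l ≠ 0) (hadj : Algebra.adjoin F {l} = ⊤)
    {n : ℕ} (hn : finrank F E = n) : ∃ b : Basis (Fin n) F E,
      Algebra.leftMulMatrix b l = comp n (fun i => -(minpoly F l).coeff i) ∧
      ∀ h : (comp n (fun i => -(minpoly F l).coeff i)).det = 1, levSL (Fin n) (compSL n _ h) = SpEmb.levi (Fin n) (mulGL b hl) := by
  have : FiniteDimensional F E := Module.Finite.of_finite
  let pb : PowerBasis F E := PowerBasis.ofAdjoinEqTop' (Algebra.IsIntegral.isIntegral l) hadj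
  have hgen : pb.gen = l := PowerBasis.ofAdjoinEqTop'_gen _ _
  have hdim : pb.dim = n := by rw [← pb.finrank, hn]
  have hmin : pb.minpolyGen = minpoly F l := by rw [pb.minpolyGen_eq, hgen]
  have key : ∃ b : Basis (Fin n) F E, Algebra.leftMulMatrix b l = comp n (fun i => -(minpoly F l).coeff i) := by
    subst hdim
    refine ⟨pb.basis, ?_⟩
    have h1 := PowerBasis.leftMulMatrix pb
    rw [hgen, hmin] at h1
    exact h1
  obtain ⟨b, hb⟩ := key
  refine ⟨b, hb, fun h => ?_⟩
  show SpEmb.levi (Fin n) (SpecialLinearGroup.toGL _) = _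
  congr 1
  apply Units.ext
  exact hb.symm

/-- **Companion matrices with small centralizers in `Sp`.** -/
theorem exists_comp (F : Type*) [Field F] [Finite F] {n : ℕ} (hn : 3 ≤ n) :
    ∃ (c : ℕ → F) (h : (comp n c).det = 1),
      Nat.card (Subgroup.centralizer ({levSL (Fin n) (compSL n c h)} : Set (symplecticGroup (Fin n) F))) ≤ Nat.card F ^ n - 1 := by
  obtain ⟨E, K, _, _, _, _, _, _, _, _, h1, h2, h3, h4, h5⟩ := exists_tower F n (by omega)
  have := Fintype.ofFinite F
  have := Fintype.ofFinite E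
  set q := Nat.card F with hq
  have hq2 : 2 ≤ q := Finite.one_lt_card
  have : FiniteDimensional F E := Module.Finite.of_finite
  have hN := geom_mul hq2 n
  set N := ∑ i ∈ Finset.range n, q ^ i with hNdef
  obtain ⟨l, hl, hlN⟩ := exists_order (K := E) (m := N) (by rw [h4, ← hN]; exact dvd_mul_right _ _)
  have hadj : Algebra.adjoin F {l} = ⊤ := adjoin_eq_top hl (by
    intro j hj0 hj hd
    rw [h1] at hj
    rw [hlN, ← hq] at hd
    have h6 := geom_gt hq2 hn hj
    have h7 : 2 ≤ q ^ j := hq2.trans (Nat.le_self_pow hj0.ne' q)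
    have h8 := Nat.le_of_dvd (by omega) hd
    omega)
  obtain ⟨b, hb, hb2⟩ := comp_lev hl hadj h1
  have hdet : (comp n (fun i => -(minpoly F l).coeff i)).det = 1 := by
    rw [← hb, ← Algebra.norm_eq_matrix_det]
    apply (algebraMap F E).injective
    rw [FiniteField.algebraMap_norm_eq_pow, map_one, h4, ← hN, Nat.mul_div_cancel _ (by omega), ← hlN, pow_orderOf_eq_one]
  refine ⟨_, hdet, ?_⟩
  rw [hb2 hdet, ← h4]
  refine card_cent_levi b hl hadj (aeval_inv_ne hl ?_)
  intro j hj h0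
  rw [h1] at hj
  rw [← orderOf_dvd_iff_pow_eq_one, hlN, ← hq] at h0
  have := Nat.le_of_dvd (by omega) h0
  have := geom_gt hq2 hn hj
  omega

end Cfsg.Agent.H16.DP
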